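import Mathlib
import Cfsg.Agent.Lib.Helper83.SnB.Q8MDefs

/-!
S2986, sub-package [M-SI] of [Q8-M] (helper79 for helper83): if `A_E = A_F` then `K_E` and `K_F`
induce the same group on it.
-/

set_option autoImplicit false

namespace Cfsg.Agent.Lib.Helper79.SnB

open Cfsg Cfsg.Agent.Lib.Helper41.SnB Cfsg.Agent.Lib.Helper34.SnB Cfsg.Agent.Lib.Helper83.SnB

universe u

/-- An element of order dividing 3 that is inverted and centralized by `z` is trivial. -/
theorem si_inv_free {G : Type u} [Group G] (z a : G) (h3 : a ^ 3 = 1)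
    (hinv : z * a * z⁻¹ = a⁻¹) (hc : z * a = a * z) : a = 1 := by
  have h1 : z * a * z⁻¹ = a := by rw [hc]; group
  have h2 : a⁻¹ = a := by rw [← hinv, h1]
  have h4 : a * a = 1 := by
    calc a * a = a⁻¹ * a := by rw [h2]
      _ = 1 := by group
  calc a = a ^ 3 * (a * a)⁻¹ := by group
    _ = 1 := by rw [h3, h4]; group

/-- Freeness: an element of `K` centralizing a nontrivial element of `A` is trivial. -/
theorem si_free {G : Type u} [Group G] (A K : Subgroup G) (z : G)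
    (hA3 : ∀ a ∈ A, a ^ 3 = 1) (sq : ∀ k ∈ K, k = 1 ∨ k = z ∨ k * k = z)
    (inv : ∀ a ∈ A, z * a * z⁻¹ = a⁻¹) :
    ∀ k ∈ K, ∀ a ∈ A, a ≠ 1 → k * a = a * k → k = 1 := by
  intro k hk a ha ha1 hc
  rcases sq k hk with h | h | h
  · exact h
  · exact absurd (si_inv_free z a (hA3 a ha) (inv a ha) (h ▸ hc)) ha1
  · have hz : z * a = a * z := by
      rw [← h]
      calc k * k * a = k * (k * a) := by group
        _ = k * (a * k) := by rw [hc]
        _ = (k * a) * k := by group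
        _ = a * k * k := by rw [hc]
        _ = a * (k * k) := by group
    exact absurd (si_inv_free z a (hA3 a ha) (inv a ha) hz) ha1

/-- Regularity: `K` (of order 8, acting freely) is transitive on the 8 nontrivial elements of
`A` (of order 9). -/
theorem si_regular {G : Type u} [Group G] [Finite G] (A K : Subgroup G) (z : G)
    (hA9 : Nat.card ↥A = 9) (hK8 : Nat.card ↥K = 8) (hA3 : ∀ a ∈ A, a ^ 3 = 1)
    (nK : ∀ k ∈ K, ∀ a ∈ A, k * a * k⁻¹ ∈ A)
    (sq : ∀ k ∈ K, k = 1 ∨ k = z ∨ k * k = z) (inv : ∀ a ∈ A, z * a * z⁻¹ = a⁻¹)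
    (a₀ : G) (ha₀ : a₀ ∈ A) (h1 : a₀ ≠ 1) :
    ∀ b ∈ A, b ≠ 1 → ∃ k ∈ K, k * a₀ * k⁻¹ = b := by
  classical
  intro b hb hb1
  have free := si_free A K z hA3 sq inv
  obtain ⟨φ, hφ⟩ : ∃ φ : ↥K → ↥A, ∀ k : ↥K, ((φ k : ↥A) : G) = (k : G) * a₀ * (k : G)⁻¹ :=
    ⟨fun k => ⟨(k : G) * a₀ * (k : G)⁻¹, nK k k.2 a₀ ha₀⟩, fun _ => rfl⟩
  have hinj : Function.Injective φ := by
    intro k k' hkk
    have h2 : (k : G) * a₀ * (k : G)⁻¹ = (k' : G) * a₀ * (k' : G)⁻¹ := by
      rw [← hφ k, ← hφ k', hkk]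
    have h3 : ((k' : G)⁻¹ * (k : G)) * a₀ = a₀ * ((k' : G)⁻¹ * (k : G)) := by
      calc ((k' : G)⁻¹ * (k : G)) * a₀ = (k' : G)⁻¹ * ((k : G) * a₀ * (k : G)⁻¹) * (k : G) := by
            group
        _ = (k' : G)⁻¹ * ((k' : G) * a₀ * (k' : G)⁻¹) * (k : G) := by rw [h2]
        _ = a₀ * ((k' : G)⁻¹ * (k : G)) := by group
    have h4 := free _ (K.mul_mem (K.inv_mem k'.2) k.2) a₀ ha₀ h1 h3
    apply Subtype.ext
    calc (k : G) = (k' : G) * ((k' : G)⁻¹ * (k : G)) := by group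
      _ = (k' : G) := by rw [h4, mul_one]
  have : Fintype ↥K := Fintype.ofFinite _
  have : Fintype ↥A := Fintype.ofFinite _
  have hc8 : (Finset.univ.image φ).card = 8 := by
    rw [Finset.card_image_of_injective _ hinj, Finset.card_univ, ← Nat.card_eq_fintype_card, hK8]
  have hnot : (1 : ↥A) ∉ Finset.univ.image φ := by
    intro hmem
    obtain ⟨k, -, hk⟩ := Finset.mem_image.mp hmem
    have h2 : (k : G) * a₀ * (k : G)⁻¹ = 1 := by
      rw [← hφ k, hk]; rfl
    apply h1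
    calc a₀ = (k : G)⁻¹ * ((k : G) * a₀ * (k : G)⁻¹) * (k : G) := by group
      _ = 1 := by rw [h2]; group
  have hall : insert (1 : ↥A) (Finset.univ.image φ) = Finset.univ := by
    apply Finset.eq_univ_of_card
    rw [Finset.card_insert_of_notMem hnot, hc8, ← Nat.card_eq_fintype_card, hA9]
  have hmem : (⟨b, hb⟩ : ↥A) ∈ insert (1 : ↥A) (Finset.univ.image φ) := by
    rw [hall]; exact Finset.mem_univ _
  rcases Finset.mem_insert.mp hmem with h | h
  · exact absurd (congrArg Subtype.val h) hb1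
  · obtain ⟨k, -, hk⟩ := Finset.mem_image.mp h
    exact ⟨k, k.2, by rw [← hφ k, hk]⟩

/-- The abstract form of [M-SI]. -/
theorem si_core {G : Type u} [Group G] [Finite G] (A KE KF : Subgroup G) (zE zF : G)
    (hA9 : Nat.card ↥A = 9) (hA3 : ∀ a ∈ A, a ^ 3 = 1) (hK8 : Nat.card ↥KE = 8)
    (nE : ∀ k ∈ KE, ∀ a ∈ A, k * a * k⁻¹ ∈ A) (nF : ∀ l ∈ KF, ∀ a ∈ A, l * a * l⁻¹ ∈ A)
    (sqE : ∀ k ∈ KE, k = 1 ∨ k = zE ∨ k * k = zE)
    (sqF : ∀ l ∈ KF, l = 1 ∨ l = zF ∨ l * l = zF)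
    (invE : ∀ a ∈ A, zE * a * zE⁻¹ = a⁻¹) (invF : ∀ a ∈ A, zF * a * zF⁻¹ = a⁻¹)
    (hzE : zE ∈ KE) :
    ∀ l ∈ KF, ∃ k ∈ KE, ∀ a ∈ A, k * a * k⁻¹ = l * a * l⁻¹ := by
  classical
  intro l hl
  have freeE := si_free A KE zE hA3 sqE invE
  have freeF := si_free A KF zF hA3 sqF invF
  rcases sqF l hl with h | h | h
  · exact ⟨1, KE.one_mem, fun a _ => by rw [h]⟩
  · exact ⟨zE, hzE, fun a ha => by rw [h, invE a ha, invF a ha]⟩
  · -- a nontrivial element of `A`
    obtain ⟨a₀, ha₀, h1⟩ : ∃ a₀ ∈ A, a₀ ≠ 1 := by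
      by_contra hcon
      push Not at hcon
      have hbot : A = ⊥ := (Subgroup.eq_bot_iff_forall A).mpr hcon
      rw [hbot, Subgroup.card_bot] at hA9
      omega
    have hzF : zF ∈ KF := h ▸ KF.mul_mem hl hl
    have hb : l * a₀ * l⁻¹ ∈ A := nF l hl a₀ ha₀
    have hb1 : l * a₀ * l⁻¹ ≠ 1 := by
      intro h2
      apply h1
      calc a₀ = l⁻¹ * (l * a₀ * l⁻¹) * l := by group
        _ = 1 := by rw [h2]; group
    obtain ⟨k, hk, hkb⟩ := si_regular A KE zE hA9 hK8 hA3 nE sqE invE a₀ ha₀ h1 _ hb hb1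
    -- `zE`, `zF` are not trivial on `a₀`
    have hzEne : zE ≠ 1 := by
      intro h2
      apply h1
      exact si_inv_free zE a₀ (hA3 a₀ ha₀) (invE a₀ ha₀) (by rw [h2, one_mul, mul_one])
    have hzFne : zF ≠ 1 := by
      intro h2
      apply h1
      exact si_inv_free zF a₀ (hA3 a₀ ha₀) (invF a₀ ha₀) (by rw [h2, one_mul, mul_one])
    -- `k * k = zE`
    have hkk : k * k = zE := by
      rcases sqE k hk with h2 | h2 | h2
      · exfalso
        rw [h2] at hkb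
        have h3 : l * a₀ = a₀ * l := by
          calc l * a₀ = (l * a₀ * l⁻¹) * l := by group
            _ = a₀ * l := by rw [← hkb]; group
        have h4 := freeF l hl a₀ ha₀ h1 h3
        rw [h4, one_mul] at h
        exact hzFne h.symm
      · exfalso
        rw [h2, invE a₀ ha₀, ← invF a₀ ha₀] at hkb
        have h3 : (zF⁻¹ * l) * a₀ = a₀ * (zF⁻¹ * l) := by
          calc (zF⁻¹ * l) * a₀ = zF⁻¹ * (l * a₀ * l⁻¹) * l := by group
            _ = zF⁻¹ * (zF * a₀ * zF⁻¹) * l := by rw [hkb]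
            _ = a₀ * (zF⁻¹ * l) := by group
        have h4 := freeF _ (KF.mul_mem (KF.inv_mem hzF) hl) a₀ ha₀ h1 h3
        have h5 : l = zF := by
          calc l = zF * (zF⁻¹ * l) := by group
            _ = zF := by rw [h4, mul_one]
        rw [h5] at h
        exact hzFne (mul_left_cancel (a := zF) (by rw [h, mul_one]))
      · exact h2
    -- the subgroup of `A` on which `k` and `l` agree
    obtain ⟨D, hD⟩ : ∃ D : Subgroup G, D = A ⊓ Subgroup.centralizer {l⁻¹ * k} := ⟨_, rfl⟩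
    have hDmem : ∀ a : G, a ∈ D ↔ a ∈ A ∧ k * a * k⁻¹ = l * a * l⁻¹ := by
      intro a
      rw [hD, Subgroup.mem_inf, Subgroup.mem_centralizer_iff]
      constructor
      · rintro ⟨ha, hc⟩
        refine ⟨ha, ?_⟩
        have h2 := hc (l⁻¹ * k) rfl
        calc k * a * k⁻¹ = l * (l⁻¹ * k * a) * k⁻¹ := by group
          _ = l * (a * (l⁻¹ * k)) * k⁻¹ := by rw [h2]
          _ = l * a * l⁻¹ := by group
      · rintro ⟨ha, hc⟩
        refine ⟨ha, ?_⟩
        intro x hx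
        rw [Set.mem_singleton_iff] at hx
        rw [hx]
        calc l⁻¹ * k * a = l⁻¹ * (k * a * k⁻¹) * k := by group
          _ = l⁻¹ * (l * a * l⁻¹) * k := by rw [hc]
          _ = a * (l⁻¹ * k) := by group
    have ha₀D : a₀ ∈ D := (hDmem a₀).mpr ⟨ha₀, hkb⟩
    have hbD : l * a₀ * l⁻¹ ∈ D := by
      refine (hDmem _).mpr ⟨hb, ?_⟩
      calc k * (l * a₀ * l⁻¹) * k⁻¹ = k * (k * a₀ * k⁻¹) * k⁻¹ := by rw [hkb]
        _ = (k * k) * a₀ * (k * k)⁻¹ := by group
        _ = a₀⁻¹ := by rw [hkk, invE a₀ ha₀]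
        _ = (l * l) * a₀ * (l * l)⁻¹ := by rw [h, invF a₀ ha₀]
        _ = l * (l * a₀ * l⁻¹) * l⁻¹ := by group
    -- the four elements `1, a₀, a₀⁻¹, b` of `D` are distinct
    have hne1 : a₀⁻¹ ≠ a₀ := by
      intro h2
      apply h1
      have h4 : a₀ * a₀ = 1 := by
        calc a₀ * a₀ = a₀⁻¹ * a₀ := by rw [h2]
          _ = 1 := by group
      calc a₀ = a₀ ^ 3 * (a₀ * a₀)⁻¹ := by group
        _ = 1 := by rw [hA3 a₀ ha₀, h4]; group
    have hne2 : l * a₀ * l⁻¹ ≠ a₀ := by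
      intro h2
      rw [← hkb] at h2
      have h3 : k * a₀ = a₀ * k := by
        calc k * a₀ = (k * a₀ * k⁻¹) * k := by group
          _ = a₀ * k := by rw [h2]
      have h4 := freeE k hk a₀ ha₀ h1 h3
      rw [h4, one_mul] at hkk
      exact hzEne hkk.symm
    have hne3 : l * a₀ * l⁻¹ ≠ a₀⁻¹ := by
      intro h2
      rw [← hkb, ← invE a₀ ha₀] at h2
      have h3 : (zE⁻¹ * k) * a₀ = a₀ * (zE⁻¹ * k) := by
        calc (zE⁻¹ * k) * a₀ = zE⁻¹ * (k * a₀ * k⁻¹) * k := by group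
          _ = zE⁻¹ * (zE * a₀ * zE⁻¹) * k := by rw [h2]
          _ = a₀ * (zE⁻¹ * k) := by group
      have h4 := freeE _ (KE.mul_mem (KE.inv_mem hzE) hk) a₀ ha₀ h1 h3
      have h5 : k = zE := by
        calc k = zE * (zE⁻¹ * k) := by group
          _ = zE := by rw [h4, mul_one]
      rw [h5] at hkk
      exact hzEne (mul_left_cancel (a := zE) (by rw [hkk, mul_one]))
    have h4le : 4 ≤ Nat.card ↥D := by
      have hs : ({1, a₀, a₀⁻¹, l * a₀ * l⁻¹} : Finset G).card = 4 := by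
        rw [Finset.card_insert_of_notMem, Finset.card_insert_of_notMem,
          Finset.card_pair (fun h2 => hne3 h2.symm)]
        · simp only [Finset.mem_insert, Finset.mem_singleton, not_or]
          exact ⟨fun h2 => hne1 h2.symm, fun h2 => hne2 h2.symm⟩
        · simp only [Finset.mem_insert, Finset.mem_singleton, not_or]
          refine ⟨fun h2 => h1 h2.symm, fun h2 => h1 (inv_eq_one.mp h2.symm), fun h2 => hb1 h2.symm⟩
      have hsub : ((({1, a₀, a₀⁻¹, l * a₀ * l⁻¹} : Finset G) : Set G)) ⊆ (D : Set G) := by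
        intro x hx
        simp only [Finset.coe_insert, Finset.coe_singleton, Set.mem_insert_iff,
          Set.mem_singleton_iff] at hx
        rcases hx with rfl | rfl | rfl | rfl
        · exact D.one_mem
        · exact ha₀D
        · exact D.inv_mem ha₀D
        · exact hbD
      have h5 := Set.ncard_le_ncard hsub (Set.toFinite _)
      rw [Set.ncard_coe_finset, hs] at h5
      have h6 : Nat.card ↥D = (D : Set G).ncard := _root_.Nat.card_coe_set_eq (D : Set G)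
      rw [h6]; exact h5
    have hDA : D ≤ A := hD ▸ inf_le_left
    have hdvd : Nat.card ↥D ∣ 9 := hA9 ▸ Subgroup.card_dvd_of_le hDA
    have hD9 : Nat.card ↥D = 9 := by
      have h2 : Nat.card ↥D ∣ 3 ^ 2 := by norm_num; exact hdvd
      obtain ⟨i, hi, hi2⟩ := (Nat.dvd_prime_pow Nat.prime_three).mp h2
      interval_cases i
      · rw [hi2] at h4le; norm_num at h4le
      · rw [hi2] at h4le; norm_num at h4le
      · rw [hi2]; norm_num
    have hDeq : D = A := Subgroup.eq_of_le_of_card_ge hDA (by rw [hD9, hA9])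
    refine ⟨k, hk, fun a ha => ?_⟩
    exact ((hDmem a).mp (hDeq ▸ ha)).2

/-- [M-SI]. -/
theorem pkgSI : PkgSI.{u} := by
  intro G _ _ p _ S₀ E F KE KF zE zF gf oE oF hA
  refine si_core (Ab p E) KE KF zE zF oE.q8.cardA (fun a ha => oE.b1.W3 a (oE.bf.AW ha))
    oE.q8.cardK ?_ ?_ oE.q8.sq oF.q8.sq oE.q8.invA ?_ oE.q8.zK
  · intro k hk a ha
    exact oE.bf.nA k (Subgroup.le_normalizer (oE.q8.KX hk)) a ha
  · intro l hl a ha
    rw [hA] at ha ⊢
    exact oF.bf.nA l (Subgroup.le_normalizer (oF.q8.KX hl)) a ha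
  · intro a ha
    rw [hA] at ha
    exact oF.q8.invA a ha

end Cfsg.Agent.Lib.Helper79.SnB
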