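import Mathlib
import Cfsg.Agent.Lib.Helper83.SnB.Q8MDefs
import Cfsg.Agent.Lib.Helper79.SnB.Q8MSI

/-!
S2986, sub-package [M-CQP] of [Q8-M] (helper79 for helper83): the pair `(K, A)` of a block of type
`Q₈` satisfies the hypotheses of the orbit lemma.
-/

set_option autoImplicit false

namespace Cfsg.Agent.Lib.Helper79.SnB

open Cfsg Cfsg.Agent.Lib.Helper41.SnB Cfsg.Agent.Lib.Helper34.SnB Cfsg.Agent.Lib.Helper83.SnB

universe u

/-- A subgroup `D` of a group `A` of order 9 containing four distinct elements `1, a, a⁻¹, b` is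
all of `A`. -/
theorem cqp_full {G : Type u} [Group G] [Finite G] (A D : Subgroup G) (hA9 : Nat.card ↥A = 9)
    (hDA : D ≤ A) (a b : G) (ha : a ∈ D) (hb : b ∈ D) (h1 : a ≠ 1) (h2 : a⁻¹ ≠ a) (h3 : b ≠ 1)
    (h4 : b ≠ a) (h5 : b ≠ a⁻¹) : D = A := by
  classical
  have h4le : 4 ≤ Nat.card ↥D := by
    have hs : ({1, a, a⁻¹, b} : Finset G).card = 4 := by
      rw [Finset.card_insert_of_notMem, Finset.card_insert_of_notMem,
        Finset.card_pair (fun h => h5 h.symm)]
      · simp only [Finset.mem_insert, Finset.mem_singleton, not_or]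
        exact ⟨fun h => h2 h.symm, fun h => h4 h.symm⟩
      · simp only [Finset.mem_insert, Finset.mem_singleton, not_or]
        exact ⟨fun h => h1 h.symm, fun h => h1 (inv_eq_one.mp h.symm), fun h => h3 h.symm⟩
    have hsub : ((({1, a, a⁻¹, b} : Finset G) : Set G)) ⊆ (D : Set G) := by
      intro x hx
      simp only [Finset.coe_insert, Finset.coe_singleton, Set.mem_insert_iff,
        Set.mem_singleton_iff] at hx
      rcases hx with rfl | rfl | rfl | rfl
      · exact D.one_mem
      · exact ha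
      · exact D.inv_mem ha
      · exact hb
    have h6 := Set.ncard_le_ncard hsub (Set.toFinite _)
    rw [Set.ncard_coe_finset, hs] at h6
    have h7 : Nat.card ↥D = (D : Set G).ncard := _root_.Nat.card_coe_set_eq (D : Set G)
    rw [h7]; exact h6
  have hdvd : Nat.card ↥D ∣ 9 := hA9 ▸ Subgroup.card_dvd_of_le hDA
  have hD9 : Nat.card ↥D = 9 := by
    have h8 : Nat.card ↥D ∣ 3 ^ 2 := by norm_num; exact hdvd
    obtain ⟨i, hi, hi2⟩ := (Nat.dvd_prime_pow Nat.prime_three).mp h8
    interval_cases i
    · rw [hi2] at h4le; norm_num at h4le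
    · rw [hi2] at h4le; norm_num at h4le
    · rw [hi2]; norm_num
  exact Subgroup.eq_of_le_of_card_ge hDA (by rw [hD9, hA9])

/-- [M-CQP]. -/
theorem pkgCQP : PkgCQP.{u} := by
  intro G _ _ p _ S₀ X K z gf sb bf q8 b1
  have hA3 : ∀ a ∈ Ab p X, a ^ 3 = 1 := fun a ha => b1.W3 a (bf.AW ha)
  have free := si_free (Ab p X) K z hA3 q8.sq q8.invA
  refine ⟨sb.AV, q8.cardA, ?_, ?_, q8.zK, q8.zc, ?_, ?_⟩
  · -- `V` normalizes `A` (it centralizes it)
    intro v hv a ha
    have hc : v * a = a * v := gf.Vc v hv a (gf.VP (sb.AV ha))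
    have : v * a * v⁻¹ = a := by rw [hc]; group
    rw [this]; exact ha
  · intro u hu k hk
    exact q8.VA u hu k (q8.KX hk)
  · intro u hu hc
    exact si_inv_free z u (hA3 u hu) (q8.invA u hu) hc
  · intro K₀ hK₀ htwo
    -- an element of `K₀` outside `{1, z}`
    obtain ⟨k₀, hk₀, hk1, hkz⟩ : ∃ k₀ ∈ K₀, k₀ ≠ 1 ∧ k₀ ≠ z := by
      by_contra hcon
      push Not at hcon
      obtain ⟨k, hk, k', hk', hkk⟩ := b1.nonab
      have hzk : ∀ x ∈ K, z * x = x * z := q8.zc
      -- `k`, `k'` do not commute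
      have hnc : k * k' ≠ k' * k := by
        intro h
        apply q8.z1
        rw [← hkk, h]; group
      have hkn : k ∉ K₀ := by
        intro h
        by_cases h1 : k = 1
        · apply hnc; rw [h1]; group
        · have := hcon k h h1
          apply hnc; rw [this]; exact hzk k' hk'
      have hkn' : k' ∉ K₀ := by
        intro h
        by_cases h1 : k' = 1
        · apply hnc; rw [h1]; group
        · have := hcon k' h h1
          apply hnc; rw [this]; exact (hzk k hk).symm
      have h3 := htwo k hk k' hk' hkn hkn'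
      by_cases h1 : k⁻¹ * k' = 1
      · apply hnc
        have : k' = k := by
          calc k' = k * (k⁻¹ * k') := by group
            _ = k := by rw [h1, mul_one]
        rw [this]
      · have h4 := hcon _ h3 h1
        apply hnc
        have : k' = k * z := by
          calc k' = k * (k⁻¹ * k') := by group
            _ = k * z := by rw [h4]
        rw [this]
        calc k * (k * z) = k * (z * k) := by rw [hzk k hk]
          _ = k * z * k := by group
    have hk₀K : k₀ ∈ K := hK₀ hk₀
    have hkk : k₀ * k₀ = z := by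
      rcases q8.sq k₀ hk₀K with h | h | h
      · exact absurd h hk1
      · exact absurd h hkz
      · exact h
    have hzK₀ : z ∈ K₀ := hkk ▸ K₀.mul_mem hk₀ hk₀
    refine ⟨hzK₀, ?_⟩
    intro D hDA hND
    by_cases hbot : D = ⊥
    · exact Or.inl hbot
    · right
      obtain ⟨d, hd, hd1⟩ : ∃ d ∈ D, d ≠ 1 := by
        by_contra hcon
        push Not at hcon
        exact hbot ((Subgroup.eq_bot_iff_forall D).mpr hcon)
      have hdA : d ∈ Ab p X := hDA hd
      have hb : k₀ * d * k₀⁻¹ ∈ D := hND k₀ hk₀ d hd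
      have hne1 : d⁻¹ ≠ d := by
        intro h2
        apply hd1
        have h4 : d * d = 1 := by
          calc d * d = d⁻¹ * d := by rw [h2]
            _ = 1 := by group
        calc d = d ^ 3 * (d * d)⁻¹ := by group
          _ = 1 := by rw [hA3 d hdA, h4]; group
      have hb1 : k₀ * d * k₀⁻¹ ≠ 1 := by
        intro h2
        apply hd1
        calc d = k₀⁻¹ * (k₀ * d * k₀⁻¹) * k₀ := by group
          _ = 1 := by rw [h2]; group
      have hb2 : k₀ * d * k₀⁻¹ ≠ d := by
        intro h2
        have h3 : k₀ * d = d * k₀ := by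
          calc k₀ * d = (k₀ * d * k₀⁻¹) * k₀ := by group
            _ = d * k₀ := by rw [h2]
        exact hk1 (free k₀ hk₀K d hdA hd1 h3)
      have hb3 : k₀ * d * k₀⁻¹ ≠ d⁻¹ := by
        intro h2
        rw [← q8.invA d hdA] at h2
        have h3 : (z⁻¹ * k₀) * d = d * (z⁻¹ * k₀) := by
          calc (z⁻¹ * k₀) * d = z⁻¹ * (k₀ * d * k₀⁻¹) * k₀ := by group
            _ = z⁻¹ * (z * d * z⁻¹) * k₀ := by rw [h2]
            _ = d * (z⁻¹ * k₀) := by group
        have h4 := free _ (K.mul_mem (K.inv_mem q8.zK) hk₀K) d hdA hd1 h3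
        apply hkz
        calc k₀ = z * (z⁻¹ * k₀) := by group
          _ = z := by rw [h4, mul_one]
      exact cqp_full (Ab p X) D q8.cardA hDA d (k₀ * d * k₀⁻¹) hd hb hd1 hne1 hb1 hb2 hb3

end Cfsg.Agent.Lib.Helper79.SnB
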