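import Mathlib
import Cfsg.Agent.Lib.Helper83.SnB.Q8MDefs

/-!
S2986, sub-package [M-SNN] of [Q8-M] (helper79 for helper83): two non-exceptional blocks with the
same `A` have the same involution.
-/

set_option autoImplicit false

namespace Cfsg.Agent.Lib.Helper79.SnB

open Cfsg Cfsg.Agent.Lib.Helper41.SnB Cfsg.Agent.Lib.Helper34.SnB Cfsg.Agent.Lib.Helper83.SnB

universe u

/-- [M-SNN]. -/
theorem pkgSNN : PkgSNN.{u} := by
  intro G _ _ p _ S₀ E F KE KF zE zF gf oE oF hA nE nF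
  obtain ⟨hQE, -, -⟩ := nE
  obtain ⟨hQF, -, -⟩ := nF
  have hzES : zE ∈ S₀ := oE.q8.KS oE.q8.zK
  have hzFS : zF ∈ S₀ := oF.q8.KS oF.q8.zK
  have hzEE : zE ∈ E := oE.q8.KX oE.q8.zK
  have hzFF : zF ∈ F := oF.q8.KX oF.q8.zK
  have hg₀ : zE * zF ∈ S₀ := S₀.mul_mem hzES hzFS
  -- `g₀` centralizes `A`
  have hcA : ∀ a ∈ Ab p E, (zE * zF) * a = a * (zE * zF) := by
    intro a ha
    have h1 : zF * a * zF⁻¹ = a⁻¹ := oF.q8.invA a (hA ▸ ha)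
    have h2 : zE * a⁻¹ * zE⁻¹ = a⁻¹⁻¹ := oE.q8.invA a⁻¹ ((Ab p E).inv_mem ha)
    have h3 : (zE * zF) * a * (zE * zF)⁻¹ = a := by
      calc (zE * zF) * a * (zE * zF)⁻¹ = zE * (zF * a * zF⁻¹) * zE⁻¹ := by group
        _ = a := by rw [h1, h2, inv_inv]
    calc (zE * zF) * a = ((zE * zF) * a * (zE * zF)⁻¹) * (zE * zF) := by group
      _ = a * (zE * zF) := by rw [h3]
  -- `[g₀, c] ∈ A` for `c ∈ P`
  have hcP : ∀ c ∈ pCore p G, (zE * zF) * c * (zE * zF)⁻¹ * c⁻¹ ∈ Ab p E := by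
    intro c hc
    have h1 : zF * c * zF⁻¹ * c⁻¹ ∈ Ab p E := by
      have := oF.b1.PXQ zF hzFF c hc
      rw [hQF, ← hA] at this
      exact this
    have h2 : zE * c * zE⁻¹ * c⁻¹ ∈ Ab p E := by
      have := oE.b1.PXQ zE hzEE c hc
      rw [hQE] at this
      exact this
    have h3 : zE * (zF * c * zF⁻¹ * c⁻¹) * zE⁻¹ ∈ Ab p E :=
      oE.bf.nA zE (Subgroup.le_normalizer hzEE) _ h1
    have h4 : (zE * zF) * c * (zE * zF)⁻¹ * c⁻¹
        = (zE * (zF * c * zF⁻¹ * c⁻¹) * zE⁻¹) * (zE * c * zE⁻¹ * c⁻¹) := by group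
    rw [h4]
    exact (Ab p E).mul_mem h3 h2
  have hAP : Ab p E ≤ pCore p G := fun a ha => gf.VP (oE.sb.AV ha)
  have hcen := coprimeChain (pCore p G) (Ab p E) (zE * zF) gf.Pp (gf.S2 _ hg₀) hAP hcA hcP
  have h1 : zE * zF = 1 := gf.ST _ hg₀ hcen
  calc zE = (zE * zF) * zF⁻¹ := by group
    _ = zF⁻¹ := by rw [h1, one_mul]
    _ = zF⁻¹ * (zF * zF) := by rw [oF.q8.zz, mul_one]
    _ = zF := by group

end Cfsg.Agent.Lib.Helper79.SnB
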